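import Cfsg.Agent.H928.Imc.GG
import Cfsg.Agent.H622.Levi.NonSwap
import Cfsg.Agent.H40.PV.Ell
import Cfsg.Agent.H53.HC.Prod
import Cfsg.Agent.Tits.ExtAux

/-!
# Elliptic elements (S4555, S4559, helper928)

* `pow_eq_one_of_norm` : the elements `y` of `M_a` normalising `X_a` satisfy `y ^ ((q - 1) q) = 1`;
* `ell_one` : `x ∈ M_a`, `x ^ ((q_a - 1) q_a) ≠ 1`: `Ell {a} x`;
* `ell_two` : `x = x_a x_b`, `a`, `b` orthogonal: `Ell {a, b} x`;
* `exists_x` : an element of `M_a` for an element of `SL_2(F)`.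
-/

set_option autoImplicit false
set_option linter.unusedSectionVars false

namespace Cfsg.Agent.H928.Van

open CoxeterSystem Cfsg.Agent.ChevalleyStructure.CoxeterGeom Cfsg.Agent.Tits.Roots Cfsg.Agent.Tits.Core
  Cfsg.Agent.Tits.Exchange Cfsg.Agent.Nodes.Reps Cfsg.Agent.Nodes.BNOf Cfsg.Agent.Nodes.StabComb
  Cfsg.Agent.Nodes.Bruhat Cfsg.Agent.Nodes.OppDec Cfsg.Agent.Nodes.LeviDec
open Cfsg.Agent.LieRecognition.BNCox (cA)
open Cfsg.Agent.H622.Levi hiding MJ rad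
open Cfsg.Agent.H53.HC (MJ rad Orth mem_LJ_iff_mul' MJ_le_LJ LJ_le_normalizer_MJ)
open Cfsg.Agent.H928.Imc Cfsg.Agent.H40.PV
open Matrix

section sl2

variable {F : Type*} [Field F]

theorem tri_pow {g : SpecialLinearGroup (Fin (1 + 1)) F} (h : g.1 1 0 = 0) (n : ℕ) :
    (g ^ n).1 1 0 = 0 ∧ (g ^ n).1 0 0 = g.1 0 0 ^ n ∧ (g ^ n).1 1 1 = g.1 1 1 ^ n := by
  induction n with
  | zero =>
    rw [pow_zero, pow_zero, pow_zero]
    exact ⟨rfl, rfl, rfl⟩
  | succ n ih =>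
    obtain ⟨h1, h2, h3⟩ := ih
    have e : (g ^ (n + 1)).1 = (g ^ n).1 * g.1 := by rw [pow_succ]; rfl
    rw [e]
    refine ⟨?_, ?_, ?_⟩
    · rw [Matrix.mul_apply, Fin.sum_univ_two, h1, h, zero_mul, mul_zero, add_zero]
    · rw [Matrix.mul_apply, Fin.sum_univ_two, h, mul_zero, add_zero, h2, pow_succ]
    · rw [Matrix.mul_apply, Fin.sum_univ_two, h1, zero_mul, zero_add, h3, pow_succ]

theorem tri_pow_eq_one [Finite F] {g : SpecialLinearGroup (Fin (1 + 1)) F} (h : g.1 1 0 = 0) :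
    g ^ ((Nat.card F - 1) * Nat.card F) = 1 := by
  have hdet : g.1 0 0 * g.1 1 1 = 1 := by
    have := g.2
    rw [Matrix.det_fin_two, h, mul_zero, sub_zero] at this
    exact this
  have h00 : g.1 0 0 ≠ 0 := left_ne_zero_of_mul_eq_one hdet
  have h11 : g.1 1 1 ≠ 0 := right_ne_zero_of_mul_eq_one hdet
  have hF : ∀ x : F, x ≠ 0 → x ^ (Nat.card F - 1) = 1 := by
    intro x hx
    have h2 : (Units.mk0 x hx) ^ (Nat.card F - 1) = 1 := by
      rw [← Nat.card_units]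
      exact pow_card_eq_one'
    have := congrArg Units.val h2
    rwa [Units.val_pow_eq_pow_val, Units.val_mk0, Units.val_one] at this
  obtain ⟨h1, h2, h3⟩ := tri_pow h (Nat.card F - 1)
  rw [hF _ h00] at h2
  rw [hF _ h11] at h3
  have h4 : g ^ (Nat.card F - 1) = uu ((g ^ (Nat.card F - 1)).1 0 1) := by
    apply Subtype.ext
    ext i j
    fin_cases i <;> fin_cases j
    · exact h2
    · rfl
    · exact h1
    · exact h3
  rw [pow_mul, h4, uu_pow]
  have h5 : ((Nat.card F : ℕ) : F) = 0 := by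
    have := Fintype.ofFinite F
    rw [Nat.card_eq_fintype_card]
    exact Nat.cast_card_eq_zero F
  rw [h5, zero_mul]
  apply Subtype.ext
  ext i j
  fin_cases i <;> fin_cases j <;> rfl

/-- an element normalising the upper unitriangular matrices -/
theorem tri_of_conj {g : SpecialLinearGroup (Fin (1 + 1)) F} {b : F} (h : g * uu 1 * g⁻¹ = uu b) : g.1 1 0 = 0 := by
  have h1 : g * uu 1 = uu b * g := by rw [← h]; group
  have h2 := congrFun (congrFun (congrArg Subtype.val h1) 1) 1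
  change (g.1 * !![(1 : F), 1; 0, 1]) 1 1 = (!![(1 : F), b; 0, 1] * g.1) 1 1 at h2
  rw [Matrix.mul_apply, Fin.sum_univ_two, Matrix.mul_apply, Fin.sum_univ_two] at h2
  simpa using h2

end sl2

section rgd

variable {I W Y : Type*} [Fintype I] [DecidableEq I] [Group W] [Group Y] {M : CoxeterMatrix I}
  {cs : CoxeterSystem M W} {A : I → I → ℤ} {h : IsCartan M A} {p : ℕ} {T : Subgroup Y} {n : I → Y}
  {X : (I → ℤ) → Subgroup Y} [Finite W] [Finite Y] (R : RGD cs h p T n X)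

include R

/-- coordinates of a node -/
theorem exists_node {a j : I} (hM : M a j = 3) : ∃ (F : Type) (_ : Field F) (_ : Fintype F)
    (f : SpecialLinearGroup (Fin (1 + 1)) F →* Y), Function.Injective f ∧ f.range = MJ cs h X {a} ∧
      (∀ x, x ∈ X (sr a) ↔ ∃ b, f (uu b) = x) ∧ Nat.card (X (sr a)) = Nat.card F := by
  obtain ⟨k, hk0, hk1, hK, hk⟩ := exists_chain hM
  obtain ⟨F, _, _, φ, C⟩ := exists_co R le_rfl k hk
  let k' : Fin 1 ↪ I := ⟨fun _ => a, fun a b _ => Subsingleton.elim a b⟩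
  have C' : Co X k' F (φ.comp emb) := C.one _ hk0.symm
  have hk' : ∀ i j, M (k' i) (k' j) = cA 1 i j := by
    intro i j
    rw [Subsingleton.elim i j, M.diagonal, CoxeterMatrix.diagonal]
  have hr : Set.range k' = {a} := by
    ext x
    constructor
    · rintro ⟨_, rfl⟩; rfl
    · rintro rfl; exact ⟨0, rfl⟩
  refine ⟨F, inferInstance, inferInstance, φ.comp emb, ?_, ?_, ?_, ?_⟩
  · rw [injective_iff_map_eq_one]
    intro g hg
    have h1 : emb g ∈ Subgroup.center (SpecialLinearGroup (Fin 3) F) := C.ker (by rw [MonoidHom.mem_ker]; exact hg)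
    have h2 := Subgroup.mem_center_iff.1 h1
    obtain ⟨r, -, hr⟩ := Matrix.SpecialLinearGroup.mem_center_iff.1 h1
    have e22 := congrFun (congrFun hr 2) 2
    have hv : ∀ i j : Fin 2, g.1 i j = (emb g).1 i.castSucc j.castSucc := by
      intro i j
      rw [coe_emb]
      fin_cases i <;> fin_cases j <;> rfl
    have h22 : (emb g).1 2 2 = 1 := by rw [coe_emb]; rfl
    rw [h22, Matrix.scalar_apply, Matrix.diagonal_apply_eq] at e22
    apply Subtype.ext
    ext i j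
    have e3 := hv i j
    change g.1 i j = _
    rw [e3, ← hr, e22, map_one]
    fin_cases i <;> fin_cases j <;> rfl
  · have h1 : (φ.comp emb).range = H53.HC.MJ cs h X (Set.range k') := C'.range hk' (by norm_num)
    rw [h1, hr]
  · intro x
    have h1 := C'.root 0 1 (by decide)
    have e1 : cr k' 0 1 = sr a := cr_succ k' 0
    rw [e1] at h1
    have h2 : x ∈ X (sr a) ↔ x ∈ (X (sr a) : Set Y) := Iff.rfl
    rw [h2, h1, Set.mem_range]
    have h3 : ∀ b : F, (uu b : SpecialLinearGroup (Fin (1 + 1)) F) =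
        SpecialLinearGroup.transvection (i := (0 : Fin (1 + 1))) (j := 1) (by decide) b := by
      intro b
      apply Subtype.ext
      change !![(1 : F), b; 0, 1] = (1 : Matrix (Fin (1 + 1)) (Fin (1 + 1)) F) + Matrix.single 0 1 b
      ext i j
      fin_cases i <;> fin_cases j <;> simp
    simp only [h3]
  · exact C'.card 0

/-- **The elements of `M_a` normalising `X_a`.** -/
theorem pow_eq_one_of_norm {a j : I} (hM : M a j = 3) {y : Y} (hy : y ∈ MJ cs h X {a})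
    (hn : cj y (X (sr a)) ≤ X (sr a)) : y ^ ((Nat.card (X (sr a)) - 1) * Nat.card (X (sr a))) = 1 := by
  obtain ⟨F, _, _, f, hinj, hran, hX, hcard⟩ := exists_node R hM
  rw [← hran] at hy
  obtain ⟨g, rfl⟩ := hy
  have h1 : f g * f (uu 1) * (f g)⁻¹ ∈ X (sr a) := hn ⟨f (uu 1), (hX _).2 ⟨1, rfl⟩, rfl⟩
  obtain ⟨b, hb⟩ := (hX _).1 h1
  rw [← map_inv, ← map_mul, ← map_mul] at hb
  rw [hcard, ← map_pow, tri_pow_eq_one (tri_of_conj (hinj hb).symm), map_one]

/-- an element of `M_a` in the Borel subgroup -/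
theorem pow_eq_one_of_mem_B {a j : I} (hM : M a j = 3) {y : Y} (hy : y ∈ MJ cs h X {a})
    (hB : y ∈ RGD.B cs h T X) : y ^ ((Nat.card (X (sr a)) - 1) * Nat.card (X (sr a))) = 1 := by
  refine pow_eq_one_of_norm R hM hy ?_
  have h1 : y ∈ BJ cs h T X {a} := by
    rw [← B_inf_LJ R {a}]
    exact ⟨hB, MJ_le_LJ _ hy⟩
  have h2 : UJ cs h X {a} = X (sr a) := Cfsg.Agent.KFacts.RgdDiag.UJ_singleton a
  have h3 : BJ cs h T X {a} ≤ Subgroup.normalizer (X (sr a) : Set Y) := by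
    unfold BJ
    rw [h2]
    exact sup_le (fun t ht => mem_normalizer_iff_cj.2 (R.tor _ (isRoot_sr cs h a) t ht)) Subgroup.le_normalizer
  exact (mem_normalizer_iff_cj.1 (h3 h1)).le

/-- `M_a ∩ P_K ≤ B`, `a ∉ K` -/
theorem mem_B_of_mem_PJ {a : I} {K : Set I} (haK : a ∉ K) {y : Y} (hy : y ∈ MJ cs h X {a})
    (hP : y ∈ PJ cs h T X K) : y ∈ RGD.B cs h T X := by
  have h1 : y ∈ PJ cs h T X {a} := LJ_le_PJ (MJ_le_LJ _ hy)
  obtain ⟨w, hw, hc⟩ := (mem_PJ_iff_cell R).1 h1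
  have hw' : w ∈ WJ cs K := (cell_mem_PJ_iff R hc).1 hP
  have h2 := Cfsg.Agent.Tits.Ext.WJ_inter (cs := cs) Cfsg.Agent.Tits.Ext.simple_injective hw hw'
  have h3 : ({a} ∩ K : Set I) = ∅ := by
    ext x
    simp only [Set.mem_inter_iff, Set.mem_singleton_iff, Set.mem_empty_iff_false, iff_false, not_and]
    rintro rfl
    exact haK
  rw [h3] at h2
  have h4 : w = 1 := by
    have h5 : WJ cs (∅ : Set I) = ⊥ := by
      unfold WJ
      simp
    rwa [h5, Subgroup.mem_bot] at h2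
  rw [h4] at hc
  exact hc.mem_of_one

/-- the Levi subgroup normalises the orthogonal components -/
theorem LJ_le_normalizer_of_orth {J K K' : Set I} (hJ : J = K ∪ K') (ho : Orth A K K') :
    LJ cs h T X J ≤ Subgroup.normalizer (MJ cs h X K : Set Y) := by
  subst hJ
  intro l hl
  obtain ⟨m, hm, t, ht, rfl⟩ := (mem_LJ_iff_mul' R _).1 hl
  rw [ho.MJ_union] at hm
  refine mul_mem ?_ (LJ_le_normalizer_MJ R K (T_le_LJ ht))
  refine (sup_le Subgroup.le_normalizer ?_ : MJ cs h X K ⊔ MJ cs h X K' ≤ _) hm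
  intro b hb
  rw [Subgroup.mem_normalizer_iff]
  intro a
  have hcomm := ho.comm R
  constructor
  · intro ha
    rw [← hcomm a ha b hb, mul_inv_cancel_right]
    exact ha
  · intro ha
    have h1 := hcomm _ ha b⁻¹ (inv_mem hb)
    have h2 : a = b * a * b⁻¹ := by
      have h3 : b⁻¹ * (b * a * b⁻¹) = (b * a * b⁻¹) * b⁻¹ := h1.symm
      have h4 : a * b⁻¹ = (b * a * b⁻¹) * b⁻¹ := by rw [← h3]; group
      exact mul_right_cancel h4
    rw [h2]
    exact ha

/-- **Elliptic elements of a product of orthogonal nodes.** -/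
theorem ell_of {K : Set I} (hK : ∀ a ∈ K, ∃ j, M a j = 3) (ho : ∀ a ∈ K, Orth A {a} (K \ {a}))
    {x : Y} (hx : ∀ a ∈ K, ∃ xa xb : Y, xa ∈ MJ cs h X {a} ∧ xb ∈ MJ cs h X (K \ {a}) ∧ x = xa * xb ∧
      xa ^ ((Nat.card (X (sr a)) - 1) * Nat.card (X (sr a))) ≠ 1) (hxK : x ∈ MJ cs h X K) :
    Ell cs h T X K x := by
  refine ⟨LJ_le_PJ (MJ_le_LJ _ hxK), fun g hg K' hK' hgx => ?_⟩
  by_contra hne
  obtain ⟨a, haK, haK'⟩ : ∃ a ∈ K, a ∉ K' := by
    by_contra hcon
    push Not at hcon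
    exact hne (Set.Subset.antisymm hK' hcon)
  obtain ⟨j, hj⟩ := hK a haK
  obtain ⟨xa, xb, hxa, hxb, hxe, hpow⟩ := hx a haK
  have hKe : K = {a} ∪ (K \ {a}) := by
    ext i
    simp only [Set.mem_union, Set.mem_singleton_iff, Set.mem_sdiff]
    constructor
    · intro hi
      by_cases h : i = a
      · exact Or.inl h
      · exact Or.inr ⟨hi, h⟩
    · rintro (rfl | hi)
      · exact haK
      · exact hi.1
  obtain ⟨l, hl, v, hv, rfl⟩ := (mem_PJ R).1 hg
  have h1 : l⁻¹ * x * l ∈ PJ cs h T X K' := by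
    have hvP : v ∈ PJ cs h T X K' := B_le_PJ (VJ_le_B K hv)
    have h2 := mul_mem (mul_mem hvP hgx) (inv_mem hvP)
    have e : v * ((l * v)⁻¹ * x * (l * v)) * v⁻¹ = l⁻¹ * x * l := by group
    rwa [e] at h2
  have hmono : PJ cs h T X K' ≤ PJ cs h T X (K \ {a}) := by
    intro y hy
    obtain ⟨w, hw, hc⟩ := (mem_PJ_iff_cell R).1 hy
    refine (mem_PJ_iff_cell R).2 ⟨w, ?_, hc⟩
    have hsub : K' ⊆ K \ {a} := fun i hi => ⟨hK' hi, fun h => haK' (h ▸ hi)⟩
    exact WJ_mono cs hsub hw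
  have hya : l⁻¹ * xa * l ∈ MJ cs h X {a} := by
    have h2 := inv_mem (LJ_le_normalizer_of_orth R hKe (ho a haK) hl)
    have h3 := (Subgroup.mem_normalizer_iff.1 h2 xa).1 hxa
    rwa [inv_inv] at h3
  have hyb : l⁻¹ * xb * l ∈ MJ cs h X (K \ {a}) := by
    have h2 := inv_mem (LJ_le_normalizer_of_orth R (by rw [Set.union_comm]; exact hKe) (ho a haK).symm hl)
    have h3 := (Subgroup.mem_normalizer_iff.1 h2 xb).1 hxb
    rwa [inv_inv] at h3
  have h4 : l⁻¹ * xa * l ∈ PJ cs h T X (K \ {a}) := by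
    have h5 := mul_mem (hmono h1) (inv_mem (LJ_le_PJ (MJ_le_LJ (T := T) _ hyb)))
    have e : l⁻¹ * x * l * (l⁻¹ * xb * l)⁻¹ = l⁻¹ * xa * l := by rw [hxe]; group
    rwa [e] at h5
  have h5 := pow_eq_one_of_mem_B R hj hya (mem_B_of_mem_PJ R (by simp) hya h4)
  apply hpow
  have h6 : ∀ N : ℕ, (l⁻¹ * xa * l) ^ N = l⁻¹ * xa ^ N * l := by
    intro N
    have := conj_pow (a := l⁻¹) (b := xa) (i := N)
    rwa [inv_inv] at this
  rw [h6] at h5
  have h7 : xa ^ ((Nat.card (X (sr a)) - 1) * Nat.card (X (sr a))) =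
      l * (l⁻¹ * xa ^ ((Nat.card (X (sr a)) - 1) * Nat.card (X (sr a))) * l) * l⁻¹ := by group
  rw [h7, h5]
  group

end rgd

end Cfsg.Agent.H928.Van
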