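import Cfsg.Agent.H928.Imc.Lin

/-!
# Elements of `GL(V)` with a scalar power (S4555, S4559, helper928)

* `scalar_of_irreducible'` : `F` finite, `dim V = n` prime, `f ^ N` scalar, `N` prime to `(q ^ n - 1) / (q - 1)`: if
  `minpoly f` is irreducible then `f` is scalar;
* `scalar_or_free'` : `f` is scalar or has a free subspace.
-/

set_option autoImplicit false

namespace Cfsg.Agent.H928.Van

open Module Polynomial Cfsg.Agent.H928.Imc

universe u v

variable {F : Type u} [Field F] [Finite F] {V : Type v} [AddCommGroup V] [Module F V] [FiniteDimensional F V]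

theorem scalar_of_irreducible' {n : ℕ} (hn : n.Prime) (hV : finrank F V = n) (f : V →ₗ[F] V)
    {N : ℕ} {l : F} (hl : l ≠ 0) (hf : f ^ N = l • (1 : V →ₗ[F] V))
    (hc : N.Coprime ((Nat.card F ^ n - 1) / (Nat.card F - 1))) (hirr : Irreducible (minpoly F f)) :
    ∃ c : F, f = c • LinearMap.id := by
  classical
  have hint : IsIntegral F f := Algebra.IsIntegral.isIntegral f
  have hmon := minpoly.monic hint
  have hq : 2 ≤ Nat.card F := Finite.one_lt_card
  -- linear minimal polynomial
  have hlin : ∀ c : F, minpoly F f ∣ X - C c → ∃ c : F, f = c • LinearMap.id := by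
    intro c hd
    refine ⟨c, ?_⟩
    obtain ⟨P, hP⟩ := hd
    have h1 : aeval f (X - C c) = 0 := by rw [hP, map_mul, minpoly.aeval, zero_mul]
    rw [map_sub, aeval_X, aeval_C, sub_eq_zero] at h1
    rw [h1]
    rfl
  have : Fact (Irreducible (minpoly F f)) := ⟨hirr⟩
  let K := AdjoinRoot (minpoly F f)
  let V' := Module.AEval' f
  have htor : Module.IsTorsionBySet F[X] V' (Ideal.span {minpoly F f} : Ideal F[X]) := by
    rw [Module.isTorsionBySet_span_singleton_iff]
    intro v
    change minpoly F f • v = 0
    obtain ⟨w, rfl⟩ := (Module.AEval'.of f).surjective v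
    have h1 := Module.AEval.of_aeval_smul (R := F) (M := V) (a := f) (minpoly F f) w
    rw [minpoly.aeval, zero_smul, map_zero] at h1
    exact h1.symm
  let _ : Module K V' := htor.module
  have htow : IsScalarTower F K V' := Module.IsTorsionBySet.isScalarTower htor
  have hfV' : finrank F V' = n := by
    rw [← hV]
    exact (LinearEquiv.finrank_eq (Module.AEval'.of f)).symm
  have hfin : Module.Finite F V' := Module.Finite.equiv (Module.AEval'.of f)
  have hKfin : Module.Finite F K := (AdjoinRoot.powerBasis hirr.ne_zero).finite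
  have hKfin' : Finite K := Module.finite_of_finite F
  have hVK : Module.Finite K V' := Module.Finite.of_restrictScalars_finite F K V'
  have hmul : finrank F K * finrank K V' = n := by rw [← hfV']; exact Module.finrank_mul_finrank F K V'
  have hdeg : finrank F K = (minpoly F f).natDegree := by
    rw [(AdjoinRoot.powerBasis hirr.ne_zero).finrank, AdjoinRoot.powerBasis_dim]
  rcases (Nat.dvd_prime hn).1 (Dvd.intro _ hmul) with h1 | h1
  · -- degree one
    rw [hdeg] at h1
    obtain ⟨c, hc'⟩ : ∃ c : F, minpoly F f = X - C c := by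
      refine ⟨-(minpoly F f).coeff 0, ?_⟩
      rw [C_neg, sub_neg_eq_add]
      have h2 := hmon.as_sum
      rw [h1] at h2
      rw [h2]
      simp
    exact hlin c (by rw [hc'])
  · -- degree `n`
    exfalso
    have hnot : ∀ c : F, ¬ minpoly F f ∣ X - C c := by
      intro c hd
      have h3 := Polynomial.natDegree_le_of_dvd hd (X_sub_C_ne_zero c)
      rw [natDegree_X_sub_C, ← hdeg, h1] at h3
      exact absurd hn.two_le (by omega)
    have hx : ∀ c : F, AdjoinRoot.root (minpoly F f) ≠ algebraMap F K c := by
      intro c hcon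
      apply hnot c
      rw [← AdjoinRoot.mk_eq_zero, map_sub, AdjoinRoot.mk_X, AdjoinRoot.mk_C, sub_eq_zero]
      exact hcon
    set x : K := AdjoinRoot.root (minpoly F f) with hxdef
    have hxp : x ^ N = algebraMap F K l := by
      have h3 : minpoly F f ∣ X ^ N - C l := by
        apply minpoly.dvd
        rw [map_sub, map_pow, aeval_X, aeval_C, hf, sub_eq_zero]
        rfl
      rw [← AdjoinRoot.mk_eq_zero, map_sub, map_pow, AdjoinRoot.mk_X, AdjoinRoot.mk_C, sub_eq_zero] at h3
      exact h3
    have hx0 : x ≠ 0 := by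
      intro h
      exact hx 0 (by rw [map_zero]; exact h)
    have hcard : Nat.card K = Nat.card F ^ n := by
      rw [Module.natCard_eq_pow_finrank (K := F) (V := K), h1]
    let S := (Nat.card F ^ n - 1) / (Nat.card F - 1)
    have hSd : (Nat.card F - 1) * S = Nat.card F ^ n - 1 := by
      apply Nat.mul_div_cancel'
      simpa using Nat.sub_dvd_pow_sub_pow (Nat.card F) 1 n
    have hlq : l ^ (Nat.card F - 1) = 1 := by
      have h2 : (Units.mk0 l hl) ^ (Nat.card F - 1) = 1 := by
        rw [← Nat.card_units]
        exact pow_card_eq_one'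
      have := congrArg Units.val h2
      rwa [Units.val_pow_eq_pow_val, Units.val_mk0, Units.val_one] at this
    let z : Kˣ := (Units.mk0 x hx0) ^ (Nat.card F - 1)
    have hz1 : z ^ N = 1 := by
      apply Units.ext
      rw [Units.val_pow_eq_pow_val, Units.val_pow_eq_pow_val, Units.val_mk0, Units.val_one, ← pow_mul, mul_comm,
        pow_mul, hxp, ← map_pow, hlq, map_one]
    have hz2 : z ^ S = 1 := by
      rw [← pow_mul, hSd, ← hcard, ← Nat.card_units]
      exact pow_card_eq_one'
    have hz3 : z = 1 := by
      rw [← orderOf_eq_one_iff]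
      exact Nat.eq_one_of_dvd_coprimes hc (orderOf_dvd_of_pow_eq_one hz1) (orderOf_dvd_of_pow_eq_one hz2)
    have hz4 : x ^ (Nat.card F - 1) = 1 := by
      have := congrArg Units.val hz3
      rwa [Units.val_pow_eq_pow_val, Units.val_mk0, Units.val_one] at this
    have hz5 : x ^ Nat.card F = x := by
      have h2 : Nat.card F = (Nat.card F - 1) + 1 := by omega
      rw [h2, pow_succ, hz4, one_mul]
    -- `x` is a root of `X ^ q - X`
    have hF := Fintype.ofFinite F
    have hprod : (X ^ Fintype.card F - X : F[X]) = ∏ a : F, (X - C a) := by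
      have h8 : (X ^ Fintype.card F - X : F[X]).Monic := by
        refine monic_X_pow_sub ?_
        rw [degree_X]
        exact_mod_cast (Fintype.one_lt_card : 1 < Fintype.card F)
      have h9 := prod_multiset_X_sub_C_of_monic_of_roots_card_eq h8 (by
        rw [FiniteField.roots_X_pow_card_sub_X, FiniteField.X_pow_card_sub_X_natDegree_eq F Fintype.one_lt_card]
        rfl)
      rw [FiniteField.roots_X_pow_card_sub_X] at h9
      exact h9.symm
    have h6 : ∏ a : F, (x - algebraMap F K a) = 0 := by
      have h7 := congrArg (aeval x) hprod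
      rw [map_sub, map_pow, aeval_X, ← Nat.card_eq_fintype_card, hz5, sub_self, map_prod] at h7
      simp only [map_sub, aeval_X, aeval_C] at h7
      exact h7.symm
    rw [Finset.prod_eq_zero_iff] at h6
    obtain ⟨a, -, ha⟩ := h6
    exact hx a (sub_eq_zero.1 ha)

theorem scalar_or_free' [Nontrivial V] {n : ℕ} (hn : n.Prime) (hV : finrank F V = n) (f : V →ₗ[F] V)
    {N : ℕ} {l : F} (hl : l ≠ 0) (hf : f ^ N = l • (1 : V →ₗ[F] V)) (hN : (N : F) ≠ 0)
    (hc : N.Coprime ((Nat.card F ^ n - 1) / (Nat.card F - 1))) :
    (∃ c : F, f = c • LinearMap.id) ∨ ∃ W : Submodule F V, Free f W := by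
  by_cases hirr : Irreducible (minpoly F f)
  · exact Or.inl (scalar_of_irreducible' hn hV f hl hf hc hirr)
  · refine Or.inr (exists_free f ?_ hirr)
    have h1 : (X ^ N - C l : F[X]).Separable := separable_X_pow_sub_C l hN hl
    refine h1.squarefree.squarefree_of_dvd ?_
    apply minpoly.dvd
    rw [map_sub, map_pow, aeval_X, aeval_C, hf, sub_eq_zero]
    rfl

end Cfsg.Agent.H928.Van
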