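import Cfsg.Agent.H928.Van.Tor
import Cfsg.Agent.H928.Van.Scal
import Cfsg.Agent.H928.Imc.Van

/-!
# Cuspidal characters and components of type `A` (S4555, S4559, helper928)

`mem_of_ne` : `J = range k ∪ K'`, the chain `k` of type `A_m`, `m + 1` prime, `ψ` a character of a group containing `L_J`
without fixed vectors of the radicals of the nodes of `k`; `l ∈ L_J`, `l ^ N = 1`, `N` prime to the characteristic and to
`(q ^ (m + 1) - 1) / (q - 1)`: if `ψ l ≠ 0` then `l ∈ L_K'`.
-/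

set_option autoImplicit false
set_option linter.unusedSectionVars false

namespace Cfsg.Agent.H928.Van

open Cfsg Cfsg.Agent.Characters CoxeterSystem Cfsg.Agent.ChevalleyStructure.CoxeterGeom Cfsg.Agent.Tits.Roots
  Cfsg.Agent.Tits.Core Cfsg.Agent.Tits.Exchange Cfsg.Agent.Nodes.Reps Cfsg.Agent.Nodes.BNOf Cfsg.Agent.Nodes.StabComb
  Cfsg.Agent.Nodes.Bruhat Cfsg.Agent.Nodes.OppDec Cfsg.Agent.Nodes.LeviDec
open Cfsg.Agent.LieRecognition.BNCox (cA)
open Cfsg.Agent.H622.Levi hiding MJ rad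
open Cfsg.Agent.H53.HC (MJ rad rad_le_LJ rad_le_MJ MJ_le_LJ Orth mem_LJ_iff_mul')
open Cfsg.Agent.H928.Imc
open Matrix Module
open Cfsg.Agent.LieClassical.SLGen (transvection_smul smul_ext commutator_transvection transvection_induction)
open scoped commutatorElement

universe u

section gen

/-- sums over isomorphic images -/
theorem sum_map {G H : Type*} [Group G] [Group H] (f : G →* H) (U : Subgroup G) (V : Subgroup H) (hV : ∀ v, v ∈ V ↔ ∃ g ∈ U, f g = v)
    (hinj : ∀ g ∈ U, f g = 1 → g = 1) [Fintype U] [Fintype V] (χ : H → ℂ) : ∑ v : V, χ v = ∑ g : U, χ (f g) := by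
  symm
  refine Fintype.sum_bijective (fun g : U => (⟨f g, (hV _).2 ⟨g, g.2, rfl⟩⟩ : V)) ⟨?_, ?_⟩ _ _ fun g => rfl
  · intro g g' h
    have h1 : f g = f g' := congrArg Subtype.val h
    have h2 : f ((g : G)⁻¹ * g') = 1 := by rw [map_mul, map_inv, h1, inv_mul_cancel]
    exact Subtype.ext (inv_mul_eq_one.1 (hinj _ (mul_mem (inv_mem g.2) g'.2) h2))
  · rintro ⟨v, hv⟩
    obtain ⟨g, hg, rfl⟩ := (hV v).1 hv
    exact ⟨⟨g, hg⟩, rfl⟩

end gen

section mat

variable {m : ℕ} {F : Type} [Field F]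

/-- automorphisms trivial modulo the centre are trivial -/
theorem cjs_eq_of_center (hm : 2 ≤ m) (E : GL (Fin (m + 1)) F)
    (hE : ∀ g : SpecialLinearGroup (Fin (m + 1)) F, cjs E g * g⁻¹ ∈ Subgroup.center _) (g : SpecialLinearGroup (Fin (m + 1)) F) :
    cjs E g = g := by
  have : Nontrivial (Fin (m + 1)) := Fin.nontrivial_iff_two_le.2 (by omega)
  refine transvection_induction (fun g => cjs E g = g) ?_ ?_ g
  · intro a b hab t
    obtain ⟨c, hca, hcb⟩ : ∃ c, c ≠ a ∧ c ≠ b := by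
      have h1 : ({a, b} : Finset (Fin (m + 1))).card < Fintype.card (Fin (m + 1)) := by
        rw [Fintype.card_fin]
        exact lt_of_le_of_lt Finset.card_le_two (by omega)
      obtain ⟨c, hc⟩ := Finset.exists_mem_notMem_of_card_lt_card (s := {a, b}) (t := Finset.univ)
        (by rw [Finset.card_univ]; exact h1)
      refine ⟨c, ?_, ?_⟩ <;> rintro rfl <;> exact hc.2 (by simp)
    have h1 := commutator_transvection hab hca.symm hcb t (1 : F)
    rw [mul_one] at h1
    rw [← h1, map_commutatorElement]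
    set x := (SpecialLinearGroup.transvection hca.symm t : SpecialLinearGroup (Fin (m + 1)) F)
    set y := (SpecialLinearGroup.transvection hcb (1 : F) : SpecialLinearGroup (Fin (m + 1)) F)
    have hx := Subgroup.mem_center_iff.1 (hE x)
    have hy := Subgroup.mem_center_iff.1 (hE y)
    obtain ⟨z, hz⟩ : ∃ z, z = cjs E x * x⁻¹ := ⟨_, rfl⟩
    obtain ⟨z', hz'⟩ : ∃ z', z' = cjs E y * y⁻¹ := ⟨_, rfl⟩
    rw [← hz] at hx
    rw [← hz'] at hy
    have e1 : cjs E x = z * x := by rw [hz]; group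
    have e2 : cjs E y = z' * y := by rw [hz']; group
    rw [e1, e2, commutatorElement_def, commutatorElement_def]
    calc z * x * (z' * y) * (z * x)⁻¹ * (z' * y)⁻¹ = z * ((x * z') * y * x⁻¹) * z⁻¹ * y⁻¹ * z'⁻¹ := by group
      _ = z * ((x * z') * y * x⁻¹) * z⁻¹ * (y⁻¹ * z'⁻¹) := by group
      _ = z * ((z' * x) * y * x⁻¹) * z⁻¹ * (z' * y)⁻¹ := by rw [hy x]; group
      _ = ((z' * x) * y * x⁻¹ * z) * z⁻¹ * (z' * y)⁻¹ := by rw [hx ((z' * x) * y * x⁻¹)]
      _ = (z' * (x * y * x⁻¹)) * (z' * y)⁻¹ := by group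
      _ = ((x * y * x⁻¹) * z') * (z' * y)⁻¹ := by rw [hy (x * y * x⁻¹)]
      _ = (x * y * x⁻¹) * (z' * y⁻¹ * z'⁻¹) := by rw [_root_.mul_inv_rev]; group
      _ = (x * y * x⁻¹) * (y⁻¹ * z' * z'⁻¹) := by rw [hy y⁻¹]
      _ = x * y * x⁻¹ * y⁻¹ := by group
  · intro g g' h1 h2
    rw [map_mul, h1, h2]

/-- matrices centralising `SL_n` are scalar -/
theorem scalar_of_cjs (E : GL (Fin (m + 1)) F) (hE : ∀ g : SpecialLinearGroup (Fin (m + 1)) F, cjs E g = g) :
    ∃ c : F, (E : Matrix (Fin (m + 1)) (Fin (m + 1)) F) = c • (1 : Matrix (Fin (m + 1)) (Fin (m + 1)) F) := by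
  have h1 : (E : Matrix (Fin (m + 1)) (Fin (m + 1)) F) ∈ Set.range (Matrix.scalar (Fin (m + 1))) := by
    refine Matrix.mem_range_scalar_of_commute_transvectionStruct fun t => ?_
    have h2 := congrArg Subtype.val (hE (SpecialLinearGroup.transvection t.hij t.c))
    rw [cjs_coe] at h2
    have h4 : ((E⁻¹ : GL (Fin (m + 1)) F) : Matrix (Fin (m + 1)) (Fin (m + 1)) F) *
        (E : Matrix (Fin (m + 1)) (Fin (m + 1)) F) = 1 := by
      rw [← Units.val_mul, inv_mul_cancel, Units.val_one]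
    have h3 : (E : Matrix (Fin (m + 1)) (Fin (m + 1)) F) * (SpecialLinearGroup.transvection t.hij t.c).1 =
        (SpecialLinearGroup.transvection t.hij t.c).1 * (E : Matrix (Fin (m + 1)) (Fin (m + 1)) F) := by
      obtain ⟨P, hP⟩ : ∃ P : Matrix (Fin (m + 1)) (Fin (m + 1)) F, P = (SpecialLinearGroup.transvection t.hij t.c).1 :=
        ⟨_, rfl⟩
      have h6 : (E : Matrix (Fin (m + 1)) (Fin (m + 1)) F) * P *
          ((E⁻¹ : GL (Fin (m + 1)) F) : Matrix (Fin (m + 1)) (Fin (m + 1)) F) = P := by rw [hP]; exact h2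
      have h5 : (E : Matrix (Fin (m + 1)) (Fin (m + 1)) F) * P = P * (E : Matrix (Fin (m + 1)) (Fin (m + 1)) F) := by
        calc (E : Matrix (Fin (m + 1)) (Fin (m + 1)) F) * P = ((E : Matrix (Fin (m + 1)) (Fin (m + 1)) F) * P *
            ((E⁻¹ : GL (Fin (m + 1)) F) : Matrix (Fin (m + 1)) (Fin (m + 1)) F)) * E := by rw [mul_assoc, h4, mul_one]
          _ = _ := by rw [h6]
      rw [← hP]
      exact h5
    exact h3.symm
  obtain ⟨c, hc⟩ := h1
  exact ⟨c, by rw [← hc, Matrix.scalar_apply, Matrix.smul_one_eq_diagonal]⟩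

theorem toLin'_pow (E : Matrix (Fin (m + 1)) (Fin (m + 1)) F) (N : ℕ) : Matrix.toLin' (E ^ N) = Matrix.toLin' E ^ N := by
  induction N with
  | zero => rw [pow_zero, pow_zero, Matrix.toLin'_one]; rfl
  | succ N ih => rw [pow_succ, pow_succ, Matrix.toLin'_mul, ih]; rfl

/-- stable subspaces are stable under the inverse -/
theorem stab_inv (D : GL (Fin (m + 1)) F) {W : Submodule F (Fin (m + 1) → F)}
    (hW : ∀ w ∈ W, Matrix.toLin' (D : Matrix (Fin (m + 1)) (Fin (m + 1)) F) w ∈ W) :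
    ∀ w ∈ W, Matrix.toLin' ((D⁻¹ : GL (Fin (m + 1)) F) : Matrix (Fin (m + 1)) (Fin (m + 1)) F) w ∈ W := by
  have hinv : ∀ v, Matrix.toLin' ((D⁻¹ : GL (Fin (m + 1)) F) : Matrix (Fin (m + 1)) (Fin (m + 1)) F)
      (Matrix.toLin' (D : Matrix (Fin (m + 1)) (Fin (m + 1)) F) v) = v := by
    intro v
    rw [← LinearMap.comp_apply, ← Matrix.toLin'_mul, ← Units.val_mul, inv_mul_cancel, Units.val_one, Matrix.toLin'_one]
    rfl
  have h1 : W.map (Matrix.toLin' (D : Matrix (Fin (m + 1)) (Fin (m + 1)) F)) = W := by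
    apply Submodule.eq_of_le_of_finrank_eq
    · rintro _ ⟨w, hw, rfl⟩
      exact hW w hw
    · exact (Submodule.equivMapOfInjective (Matrix.toLin' (D : Matrix (Fin (m + 1)) (Fin (m + 1)) F))
        (fun a b hab => by rw [← hinv a, hab, hinv]) W).finrank_eq.symm
  intro w hw
  rw [← h1] at hw
  obtain ⟨w', hw', rfl⟩ := hw
  rw [hinv]
  exact hw'

/-- the `D`-action on the radical of a `D`-stable subspace -/
theorem cjs_mem_radSL [Finite F] (D : GL (Fin (m + 1)) F) {W : Submodule F (Fin (m + 1) → F)}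
    (hW : ∀ w ∈ W, Matrix.toLin' (D : Matrix (Fin (m + 1)) (Fin (m + 1)) F) w ∈ W)
    {g : SpecialLinearGroup (Fin (m + 1)) F} (hg : g ∈ radSL W) : cjs D g ∈ radSL W := by
  have hinv' : ∀ v, Matrix.toLin' (D : Matrix (Fin (m + 1)) (Fin (m + 1)) F)
      (Matrix.toLin' ((D⁻¹ : GL (Fin (m + 1)) F) : Matrix (Fin (m + 1)) (Fin (m + 1)) F) v) = v := by
    intro v
    rw [← LinearMap.comp_apply, ← Matrix.toLin'_mul, ← Units.val_mul, mul_inv_cancel, Units.val_one, Matrix.toLin'_one]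
    rfl
  have hWinv := stab_inv D hW
  have hcoe : ∀ v, SpecialLinearGroup.toLin' (cjs D g) v = Matrix.toLin' (D : Matrix (Fin (m + 1)) (Fin (m + 1)) F)
      (SpecialLinearGroup.toLin' g
        (Matrix.toLin' ((D⁻¹ : GL (Fin (m + 1)) F) : Matrix (Fin (m + 1)) (Fin (m + 1)) F) v)) := by
    intro v
    change Matrix.toLin' (cjs D g).1 v = _
    rw [cjs_coe, Matrix.toLin'_mul, Matrix.toLin'_mul]
    rfl
  rw [mem_radSL] at hg ⊢
  refine ⟨fun w => ?_, fun d hd => ?_⟩
  · rw [hcoe]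
    have h1 := hW _ (hg.1 (Matrix.toLin' ((D⁻¹ : GL (Fin (m + 1)) F) : Matrix (Fin (m + 1)) (Fin (m + 1)) F) w))
    rw [map_sub, hinv'] at h1
    exact h1
  · rw [hcoe, hg.2 _ (hWinv d hd), hinv']

/-- the centre meets the radical trivially -/
theorem radSL_center [Finite F] {W : Submodule F (Fin (m + 1) → F)} (hW : W ≠ ⊥) {g : SpecialLinearGroup (Fin (m + 1)) F}
    (hg : g ∈ radSL W) (hc : g ∈ Subgroup.center _) : g = 1 := by
  obtain ⟨w, hw, hw0⟩ := W.ne_bot_iff.1 hW
  obtain ⟨r, -, hr⟩ := Matrix.SpecialLinearGroup.mem_center_iff.1 hc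
  have h1 := (mem_radSL.1 hg).2 w hw
  have h2 : SpecialLinearGroup.toLin' g w = r • w := by
    change Matrix.toLin' g.1 w = _
    rw [← hr, Matrix.scalar_apply, ← Matrix.smul_one_eq_diagonal, map_smul, Matrix.toLin'_one]
    rfl
  rw [h1] at h2
  have h3 : (1 - r) • w = 0 := by
    rw [sub_smul, one_smul, ← h2, sub_self]
  have h4 : r = 1 := by
    rcases smul_eq_zero.1 h3 with h4 | h4
    · exact (sub_eq_zero.1 h4).symm
    · exact absurd h4 hw0
  apply Subtype.ext
  rw [← hr, h4, map_one]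
  rfl

end mat

section main

variable {I W : Type*} {Y : Type u} [Fintype I] [DecidableEq I] [Group W] [Group Y] {M : CoxeterMatrix I}
  {cs : CoxeterSystem M W} {A : I → I → ℤ} {h : IsCartan M A} {p : ℕ} {T : Subgroup Y} {n : I → Y}
  {X : (I → ℤ) → Subgroup Y} [Finite W] [Finite Y] {m : ℕ} {k : Fin m ↪ I} {F : Type} [Field F] [Finite F]
  {φ : SpecialLinearGroup (Fin (m + 1)) F →* Y}

/-- **Elements outside `L_K'` with a nonzero value.** -/
theorem mem_of_ne (R : RGD cs h p T n X) (hT : ∀ a ∈ T, ∀ b ∈ T, a * b = b * a) (C : Co X k F φ)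
    (hk : ∀ i j, M (k i) (k j) = cA m i j) (hm : 2 ≤ m) (hn : (m + 1).Prime) {J K' : Set I} (hJ : J = Set.range k ∪ K')
    (ho : Orth A (Set.range k) K') {L : Subgroup Y} (hL : LJ cs h T X J ≤ L) {ψ : L → ℂ} (hψ : IsCharacter L ψ)
    (hz : ∀ i ∈ Set.range k, ∀ [Fintype (rad cs h X J i)], ∑ u : rad cs h X J i, ψ ⟨u, hL (rad_le_LJ J i u.2)⟩ = 0)
    {l : Y} (hl : l ∈ LJ cs h T X J) {N : ℕ} (hlN : l ^ N = 1) (hNF : (N : F) ≠ 0)
    (hN : N.Coprime ((Nat.card F ^ (m + 1) - 1) / (Nat.card F - 1))) (hne : ψ ⟨l, hL hl⟩ ≠ 0) :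
    l ∈ LJ cs h T X K' := by
  classical
  subst hJ
  obtain ⟨y, hy, t, ht, rfl⟩ := (mem_LJ_iff_mul' R _).1 hl
  rw [ho.MJ_union] at hy
  have hcomm := ho.comm R
  have hle : MJ cs h X (Set.range k) ≤ Subgroup.normalizer (MJ cs h X K' : Set Y) := by
    intro a ha
    rw [Subgroup.mem_normalizer_iff]
    intro b
    constructor
    · intro hb
      rw [hcomm a ha b hb, mul_inv_cancel_right]
      exact hb
    · intro hb
      have h1 := hcomm a⁻¹ (inv_mem ha) _ hb
      have h2 : b = a * b * a⁻¹ := by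
        have h3 : a⁻¹ * (a * b * a⁻¹) = (a * b * a⁻¹) * a⁻¹ := h1
        have h4 : b * a⁻¹ = (a * b * a⁻¹) * a⁻¹ := by rw [← h3]; group
        exact mul_right_cancel h4
      rw [h2]
      exact hb
  have hy' : y ∈ ((MJ cs h X (Set.range k) ⊔ MJ cs h X K' : Subgroup Y) : Set Y) := hy
  rw [Subgroup.coe_mul_of_left_le_normalizer_right _ _ hle] at hy'
  obtain ⟨a, ha, b, hb, rfl⟩ := hy'
  have hran : φ.range = MJ cs h X (Set.range k) := C.range hk (by omega)
  have ha' : a ∈ MJ cs h X (Set.range k) := ha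
  rw [← hran] at ha'
  obtain ⟨s, rfl⟩ := ha'
  obtain ⟨d, hd⟩ := lin_T C R hk hm hT ht
  have hφM : ∀ g, φ g ∈ MJ cs h X (Set.range k) := fun g => hran ▸ ⟨g, rfl⟩
  -- the linear action
  obtain ⟨D, hD⟩ : ∃ D : GL (Fin (m + 1)) F, D = SpecialLinearGroup.toGL s * dgl d := ⟨_, rfl⟩
  obtain ⟨l, hll⟩ : ∃ l : Y, l = φ s * b * t := ⟨_, rfl⟩
  have hact : ∀ g, l * φ g * l⁻¹ = φ (cjs D g) := by
    intro g
    rw [hll, hD, cjs_mul, cjs_toGL, map_mul, map_mul, map_inv, ← hd]
    have h1 : b * (t * φ g * t⁻¹) = (t * φ g * t⁻¹) * b := by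
      rw [hd]
      exact (hcomm _ (hφM _) b hb).symm
    calc φ s * b * t * φ g * (φ s * b * t)⁻¹ = φ s * (b * (t * φ g * t⁻¹)) * b⁻¹ * (φ s)⁻¹ := by group
      _ = φ s * (t * φ g * t⁻¹) * (φ s)⁻¹ := by rw [h1]; group
  have hactN : ∀ j : ℕ, ∀ g, l ^ j * φ g * (l ^ j)⁻¹ = φ (cjs (D ^ j) g) := by
    intro j
    induction j with
    | zero => intro g; rw [pow_zero, pow_zero, cjs_one]; group
    | succ j ih =>
      intro g
      rw [cjs_pow, ← ih, ← hact, pow_succ]
      group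
  rw [← hll] at hl hlN
  have hcen : ∀ g, cjs (D ^ N) g = g := by
    apply cjs_eq_of_center hm
    intro g
    apply C.ker
    rw [MonoidHom.mem_ker, map_mul, ← hactN, hlN, map_inv]
    group
  obtain ⟨c, hc⟩ := scalar_of_cjs _ hcen
  have hc0 : c ≠ 0 := by
    rintro rfl
    rw [zero_smul] at hc
    exact (D ^ N).ne_zero hc
  have hpow : Matrix.toLin' (D : Matrix (Fin (m + 1)) (Fin (m + 1)) F) ^ N =
      c • (1 : (Fin (m + 1) → F) →ₗ[F] (Fin (m + 1) → F)) := by
    rw [← toLin'_pow, ← Units.val_pow_eq_pow_val, hc, map_smul, Matrix.toLin'_one]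
    rfl
  rcases scalar_or_free' hn (finrank_fin_fun F) _ hc0 hpow hNF hN with ⟨e, he⟩ | ⟨V, hV⟩
  · -- the scalar case
    have he0 : e ≠ 0 := by
      rintro rfl
      rw [zero_smul] at he
      have h1 : (D : Matrix (Fin (m + 1)) (Fin (m + 1)) F) = 0 := by
        apply Matrix.toLin'.injective
        rw [he, map_zero]
      exact D.ne_zero h1
    have h1 : (D : Matrix (Fin (m + 1)) (Fin (m + 1)) F) = e • (1 : Matrix (Fin (m + 1)) (Fin (m + 1)) F) := by
      apply Matrix.toLin'.injective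
      rw [map_smul, Matrix.toLin'_one]
      exact he
    obtain ⟨d', hd'⟩ : ∃ d' : Fin (m + 1) → Fˣ, d' = fun i => Units.mk0 e he0 * (d i)⁻¹ := ⟨_, rfl⟩
    have h2 : s.1 = Matrix.diagonal fun i => (d' i : F) := by
      have h3 : SpecialLinearGroup.toGL s = D * (dgl d)⁻¹ := by rw [hD, mul_inv_cancel_right]
      have h4 : s.1 = (D : Matrix (Fin (m + 1)) (Fin (m + 1)) F) * ((dgl d)⁻¹ : GL (Fin (m + 1)) F).1 :=
        congrArg Units.val h3
      rw [h4, h1, dgl_inv_coe, smul_mul_assoc, one_mul, hd']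
      ext i j
      by_cases hij : i = j
      · subst hij
        rw [Matrix.smul_apply, Matrix.diagonal_apply_eq, Matrix.diagonal_apply_eq, Units.val_mul, Units.val_mk0]
        rfl
      · rw [Matrix.smul_apply, Matrix.diagonal_apply_ne _ hij, Matrix.diagonal_apply_ne _ hij, smul_zero]
    have h3 : ∏ i, d' i = 1 := by
      apply Units.ext
      have h4 := s.2
      rw [h2, Matrix.det_diagonal] at h4
      rw [Units.coe_prod, Units.val_one]
      exact h4
    have h4 : s = dsl d' h3 := Subtype.ext h2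
    have h5 : φ s ∈ T := by rw [h4]; exact dsl_mem C R hk hm d' h3
    have h6 : l = b * (φ s * t) := by
      rw [hll, hcomm _ (hφM s) b hb, mul_assoc]
    rw [hll] at h6
    rw [h6]
    exact mul_mem (MJ_le_LJ K' hb) (T_le_LJ (mul_mem h5 ht))
  · -- the free case
    exfalso
    apply hne
    have hφL : ∀ g, φ g ∈ L := fun g => hL (MJ_le_LJ _ (by
      have h1 : MJ cs h X (Set.range k) ≤ MJ cs h X (Set.range k ∪ K') := by rw [ho.MJ_union]; exact le_sup_left
      exact h1 (hφM g)))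
    let f : SpecialLinearGroup (Fin (m + 1)) F →* L := φ.codRestrict L hφL
    have hf : ∀ g, (f g : Y) = φ g := fun g => rfl
    obtain ⟨η, hη⟩ : ∃ η : SpecialLinearGroup (Fin (m + 1)) F → ℂ, η = ψ ∘ f := ⟨_, rfl⟩
    have hηc : IsCharacter _ η := by rw [hη]; exact Core.isCharacter_comp f hψ
    have hkerU : ∀ {Z : Subgroup (SpecialLinearGroup (Fin (m + 1)) F)},
        (∀ g ∈ Z, g ∈ Subgroup.center (SpecialLinearGroup (Fin (m + 1)) F) → g = 1) → ∀ g ∈ Z, f g = 1 → g = 1 := by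
      intro Z hZ g hg h1
      refine hZ g hg (C.ker ?_)
      rw [MonoidHom.mem_ker, ← hf, h1]
      rfl
    have hsUU : ∀ i : Fin m, ∀ [Fintype (UU F i)], ∑ g : UU F i, η g = 0 := by
      intro i _
      have hrad : rad cs h X (Set.range k ∪ K') (k i) = (UU F i).map φ := by
        rw [ho.rad_eq ⟨i, rfl⟩]
        exact (C.map_UU (cs := cs) (h := h) hk i).symm
      have : Fintype (rad cs h X (Set.range k ∪ K') (k i)) := Fintype.ofFinite _
      rw [← hz (k i) ⟨i, rfl⟩]
      have hmem : ∀ g : UU F i, φ g ∈ rad cs h X (Set.range k ∪ K') (k i) := by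
        intro g
        rw [hrad]
        exact ⟨g, g.2, rfl⟩
      refine Fintype.sum_bijective (fun g : UU F i => (⟨φ g, hmem g⟩ : rad cs h X (Set.range k ∪ K') (k i)))
        ⟨?_, ?_⟩ _ _ ?_
      · intro g g' hgg
        have h2 : φ g = φ g' := congrArg Subtype.val hgg
        have h3 : (g : SpecialLinearGroup (Fin (m + 1)) F)⁻¹ * g' ∈ φ.ker := by
          rw [MonoidHom.mem_ker, map_mul, map_inv, h2, inv_mul_cancel]
        have h4 := UU_inf_center (mul_mem (inv_mem g.2) g'.2) (C.ker h3)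
        exact Subtype.ext (inv_mul_eq_one.1 h4)
      · rintro ⟨y, hy⟩
        have h2 : y ∈ (UU F i).map φ := by rw [← hrad]; exact hy
        obtain ⟨g, hg, rfl⟩ := h2
        exact ⟨⟨g, hg⟩, rfl⟩
      · intro g
        rw [hη]
        rfl
    have : Fintype (radSL V) := Fintype.ofFinite _
    have : Fintype ((radSL V).map f) := Fintype.ofFinite _
    have h0 : ∑ v : (radSL V).map f, ψ v = 0 := by
      rw [sum_map f (radSL V) ((radSL V).map f) (fun v => Iff.rfl)
        (hkerU fun g hg hc => radSL_center hV.ne_bot hg hc) ψ]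
      have h1 := sum_radSL (Core.isCharacter_isClassFunction hηc) hsUU hV.ne_bot hV.ne_top
      rw [hη] at h1
      exact h1
    have hlm : l ∈ L := hL hl
    have hfin : ψ ⟨l, hlm⟩ = 0 := by
      refine apply_eq_zero_of_free hψ ((radSL V).map f) h0 ?_ ?_
      · rintro _ ⟨g, hg, rfl⟩
        refine ⟨cjs D⁻¹ g, cjs_mem_radSL _ (stab_inv D hV.stab) hg, ?_⟩
        apply Subtype.ext
        change φ (cjs D⁻¹ g) = l⁻¹ * φ g * l
        have h1 := hact (cjs D⁻¹ g)
        rw [← cjs_mul, mul_inv_cancel, cjs_one] at h1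
        rw [← h1]
        group
      · rintro _ ⟨g, hg, rfl⟩ hcm
        have h1 : φ g * l = l * φ g := congrArg Subtype.val hcm
        have h2 : φ (cjs D g) = φ g := by
          rw [← hact, ← h1]
          group
        have h3 : cjs D g * g⁻¹ = 1 := by
          refine radSL_center hV.ne_bot (mul_mem (cjs_mem_radSL _ hV.stab hg) (inv_mem hg)) (C.ker ?_)
          rw [MonoidHom.mem_ker, map_mul, h2, map_inv, mul_inv_cancel]
        have h4 : cjs D g = g := mul_inv_eq_one.1 h3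
        have h5 : (D : Matrix (Fin (m + 1)) (Fin (m + 1)) F) * g.1 = g.1 * (D : Matrix (Fin (m + 1)) (Fin (m + 1)) F) := by
          have h6 := congrArg Subtype.val h4
          rw [cjs_coe] at h6
          have h7 : ((D⁻¹ : GL (Fin (m + 1)) F) : Matrix (Fin (m + 1)) (Fin (m + 1)) F) *
              (D : Matrix (Fin (m + 1)) (Fin (m + 1)) F) = 1 := by
            rw [← Units.val_mul, inv_mul_cancel, Units.val_one]
          calc (D : Matrix (Fin (m + 1)) (Fin (m + 1)) F) * g.1 = ((D : Matrix (Fin (m + 1)) (Fin (m + 1)) F) * g.1 *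
              ((D⁻¹ : GL (Fin (m + 1)) F) : Matrix (Fin (m + 1)) (Fin (m + 1)) F)) * D := by rw [mul_assoc, h7, mul_one]
            _ = _ := by rw [h6]
        have h8 := hV.hom ((SpecialLinearGroup.toLin' g : (Fin (m + 1) → F) →ₗ[F] (Fin (m + 1) → F)) - LinearMap.id)
          (by
            rw [LinearMap.sub_comp, LinearMap.comp_sub]
            congr 1
            change Matrix.toLin' g.1 ∘ₗ _ = _ ∘ₗ Matrix.toLin' g.1
            rw [← Matrix.toLin'_mul, ← Matrix.toLin'_mul, h5])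
          (fun w hw => by
            rw [LinearMap.sub_apply, LinearMap.id_apply]
            exact sub_eq_zero.2 ((mem_radSL.1 hg).2 w hw))
          (fun w => (mem_radSL.1 hg).1 w)
        have h9 : g = 1 := by
          apply SpecialLinearGroup.toLin'_injective
          apply LinearEquiv.ext
          intro x
          have h2 := LinearMap.congr_fun h8 x
          rw [LinearMap.sub_apply, LinearMap.id_apply, LinearMap.zero_apply, sub_eq_zero] at h2
          rw [map_one]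
          exact h2
        rw [h9, map_one]
    have h1 : (⟨φ s * b * t, hL (hll ▸ hl)⟩ : L) = ⟨l, hlm⟩ := Subtype.ext hll.symm
    exact (congrArg ψ h1).trans hfin

end main

end Cfsg.Agent.H928.Van
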