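import Cfsg.Agent.H928.Van.Eng
import Cfsg.Agent.H928.Van.Mk
import Cfsg.Agent.H928.Van.Crit
import Cfsg.Agent.H713.Van

/-!
# Vanishing elements of order dividing `N`, `N ∣ q + 1` (S4555, S4559, helper928)

* `Good N q` : `N ∣ q + 1`, `N` an odd prime or `N = 4`;
* `exists_e` : an elliptic element `e` of `SL_2(F)`, `e ^ N = 1`;
* `exists_xa` : the element of `M_a`;
* `vz_of` : vanishing of the induced character;
* `not_mem_card`, `not_mem_size` : `x` and its images under automorphisms are not conjugate into `P_K'`.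
-/

set_option autoImplicit false
set_option linter.unusedSectionVars false

namespace Cfsg.Agent.H928.Van

open Cfsg Cfsg.Agent.Characters CoxeterSystem Cfsg.Agent.ChevalleyStructure.CoxeterGeom Cfsg.Agent.Tits.Roots
  Cfsg.Agent.Tits.Core Cfsg.Agent.Tits.Exchange Cfsg.Agent.Nodes.Reps Cfsg.Agent.Nodes.BNOf Cfsg.Agent.Nodes.StabComb
  Cfsg.Agent.Nodes.Bruhat Cfsg.Agent.Nodes.OppDec Cfsg.Agent.Nodes.LeviDec
open Cfsg.Agent.LieRecognition.BNCox (cA)
open Cfsg.Agent.H622.Levi hiding MJ rad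
open Cfsg.Agent.H53.HC (MJ rad Orth mem_LJ_iff_mul' MJ_le_LJ exists_projL)
open Cfsg.Agent.H928.Imc Cfsg.Agent.H40.PV
open Matrix

universe u

/-- `N ∣ q + 1`, `N` an odd prime or `N = 4` -/
structure Good (N q : ℕ) : Prop where
  dvd : N ∣ q + 1
  or : (N.Prime ∧ N ≠ 2) ∨ N = 4

section arith

theorem Good.two_lt {N q : ℕ} (h : Good N q) : 2 < N := by
  rcases h.or with ⟨h1, h2⟩ | rfl
  · have := h1.two_le
    omega
  · norm_num

theorem Good.ne_zero {N : ℕ} {F : Type*} [Field F] [Finite F] (h : Good N (Nat.card F)) : (N : F) ≠ 0 := by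
  intro h0
  obtain ⟨c, hc⟩ := h.dvd
  have h1 : ((Nat.card F + 1 : ℕ) : F) = ((N * c : ℕ) : F) := by rw [hc]
  have := Fintype.ofFinite F
  rw [Nat.cast_add, Nat.cast_mul, h0, zero_mul, Nat.card_eq_fintype_card, Nat.cast_card_eq_zero, zero_add,
    Nat.cast_one] at h1
  exact one_ne_zero h1

theorem Good.coprime {N q n : ℕ} (h : Good N q) (hq : 2 ≤ q) (hn : Odd n) : N.Coprime ((q ^ n - 1) / (q - 1)) := by
  rw [← Nat.geomSum_eq hq]
  have h0 : (q : ZMod N) = -1 := by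
    have h1 : ((q + 1 : ℕ) : ZMod N) = 0 := (ZMod.natCast_eq_zero_iff _ _).2 h.dvd
    rw [Nat.cast_add, Nat.cast_one] at h1
    exact eq_neg_of_add_eq_zero_left h1
  have h1 : ((∑ i ∈ Finset.range n, q ^ i : ℕ) : ZMod N) = ((1 : ℕ) : ZMod N) := by
    rw [Nat.cast_sum]
    simp only [Nat.cast_pow, h0]
    have h2 : ∀ m : ℕ, ∑ i ∈ Finset.range (2 * m + 1), (-1 : ZMod N) ^ i = 1 := by
      intro m
      induction m with
      | zero => simp
      | succ m ih =>
        have e : 2 * (m + 1) + 1 = 2 * m + 1 + 1 + 1 := by ring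
        rw [e, Finset.sum_range_succ, Finset.sum_range_succ, ih]
        have h3 : (-1 : ZMod N) ^ (2 * m + 1) = -1 := Odd.neg_one_pow ⟨m, rfl⟩
        have h4 : (-1 : ZMod N) ^ (2 * m + 1 + 1) = 1 := Even.neg_one_pow ⟨m + 1, by ring⟩
        rw [h3, h4]
        ring
    obtain ⟨m, rfl⟩ := hn
    rw [h2 m, Nat.cast_one]
  rw [ZMod.natCast_eq_natCast_iff] at h1
  rw [Nat.coprime_comm]
  exact h1.gcd_eq.trans (Nat.gcd_one_left N)

end arith

section sl2

variable {F : Type*} [Field F] [Finite F]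

theorem exists_e {N : ℕ} (h : Good N (Nat.card F)) : ∃ e : SpecialLinearGroup (Fin (1 + 1)) F,
    e ^ N = 1 ∧ e ^ ((Nat.card F - 1) * Nat.card F) ≠ 1 := by
  classical
  have hq : 2 ≤ Nat.card F := Finite.one_lt_card
  have := Fintype.ofFinite F
  rcases h.or with ⟨h1, h2⟩ | h4
  · have : Fact N.Prime := ⟨h1⟩
    have hN1 : ¬ N ∣ Nat.card F - 1 := by
      intro h3
      have h4 := Nat.dvd_sub h.dvd h3
      have e : Nat.card F + 1 - (Nat.card F - 1) = 2 := by omega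
      rw [e] at h4
      exact h2 ((Nat.prime_dvd_prime_iff_eq h1 Nat.prime_two).1 h4)
    have hNq : ¬ N ∣ Nat.card F := by
      intro h3
      have h4 := Nat.dvd_sub h.dvd h3
      rw [Nat.add_sub_cancel_left] at h4
      exact h1.one_lt.ne' (Nat.dvd_one.1 h4)
    have hd : N ∣ Nat.card (GL (Fin (1 + 1)) F) := by
      have e := Matrix.card_GL_field (𝔽 := F) (1 + 1)
      rw [e, Fin.prod_univ_two, ← Nat.card_eq_fintype_card]
      refine Dvd.dvd.mul_right ?_ _
      have e2 : Nat.card F ^ (1 + 1) - Nat.card F ^ ((0 : Fin (1 + 1)) : ℕ) = (Nat.card F + 1) * (Nat.card F - 1) := by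
        change Nat.card F ^ 2 - Nat.card F ^ 0 = _
        rw [pow_zero, ← Nat.sq_sub_sq, one_pow]
      rw [e2]
      exact Dvd.dvd.mul_right h.dvd _
    obtain ⟨g, hg⟩ := exists_prime_orderOf_dvd_card' N hd
    have hdet : Matrix.GeneralLinearGroup.det g = 1 := by
      rw [← orderOf_eq_one_iff]
      have h3 : orderOf (Matrix.GeneralLinearGroup.det g) ∣ N := by
        apply orderOf_dvd_of_pow_eq_one
        rw [← map_pow, ← hg, pow_orderOf_eq_one, map_one]
      have h4 : orderOf (Matrix.GeneralLinearGroup.det g) ∣ Nat.card F - 1 := by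
        rw [← Nat.card_units]
        exact orderOf_dvd_natCard _
      exact Nat.eq_one_of_dvd_coprimes ((Nat.Prime.coprime_iff_not_dvd h1).2 hN1) h3 h4
    have hdet' : g.1.det = 1 := congrArg Units.val hdet
    obtain ⟨e, he⟩ : ∃ e : SpecialLinearGroup (Fin (1 + 1)) F, SpecialLinearGroup.toGL e = g :=
      ⟨⟨g.1, hdet'⟩, Units.ext rfl⟩
    have hord : orderOf e = N := by
      rw [← hg, ← he]
      exact (orderOf_injective (SpecialLinearGroup.toGL) SpecialLinearGroup.toGL_injective e).symm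
    refine ⟨e, by rw [← hord, pow_orderOf_eq_one], fun h3 => ?_⟩
    have h4 := orderOf_dvd_of_pow_eq_one h3
    rw [hord, h1.dvd_mul] at h4
    exact h4.elim hN1 hNq
  · subst h4
    obtain ⟨c, hc⟩ := h.dvd
    have h2F : (-1 : F) ≠ 1 := by
      intro h3
      have h5 : ((4 : ℕ) : F) = 0 := by
        have h6 : (2 : F) = 0 := by
          have : (2 : F) = 1 + 1 := by norm_num
          rw [this]
          nth_rewrite 1 [← h3]
          ring
        have e : ((4 : ℕ) : F) = 2 * 2 := by norm_num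
        rw [e, h6, zero_mul]
      exact h.ne_zero h5
    have e2 : (ww : SpecialLinearGroup (Fin (1 + 1)) F) ^ 2 = dd (-1) := by
      rw [sq]
      apply Subtype.ext
      change !![(0 : F), 1; -1, 0] * !![(0 : F), 1; -1, 0] = !![((-1 : Fˣ) : F), 0; 0, (((-1 : Fˣ)⁻¹ : Fˣ) : F)]
      ext i j
      fin_cases i <;> fin_cases j <;> simp [Matrix.mul_apply, Fin.sum_univ_two]
    have e4 : (ww : SpecialLinearGroup (Fin (1 + 1)) F) ^ 4 = 1 := by
      have h5 : (4 : ℕ) = 2 * 2 := rfl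
      rw [h5, pow_mul, e2, ← dd_pow, neg_one_sq]
      have h6 := dd_pow (1 : Fˣ) 0
      rwa [pow_zero, pow_zero] at h6
    refine ⟨ww, e4, ?_⟩
    -- `(q - 1) q = 4 j + 2`
    obtain ⟨j, hj⟩ : ∃ j, (Nat.card F - 1) * Nat.card F = 4 * j + 2 := by
      obtain ⟨c', rfl⟩ : ∃ c', c = c' + 1 := ⟨c - 1, by omega⟩
      have hF : Nat.card F = 4 * c' + 3 := by omega
      rw [hF]
      refine ⟨(4 * c' + 3) * c' + (2 * c' + 1), ?_⟩
      have : 4 * c' + 3 - 1 = 4 * c' + 2 := by omega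
      rw [this]
      ring
    rw [hj, pow_add, pow_mul, e4, one_pow, one_mul, e2]
    intro h3
    apply h2F
    have h5 := congrFun (congrFun (congrArg Subtype.val h3) 0) 0
    exact h5

end sl2

section rgd

variable {I W : Type*} {Y : Type u} [Fintype I] [DecidableEq I] [Group W] [Group Y] {M : CoxeterMatrix I}
  {cs : CoxeterSystem M W} {A : I → I → ℤ} {h : IsCartan M A} {p : ℕ} {T : Subgroup Y} {n : I → Y}
  {X : (I → ℤ) → Subgroup Y} [Finite W] [Finite Y] (R : RGD cs h p T n X)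

include R

/-- an elliptic element of `M_a` -/
theorem exists_xa {a j : I} (hM : M a j = 3) {N : ℕ} (hN : Good N (Nat.card (X (sr a)))) :
    ∃ x ∈ MJ cs h X {a}, x ^ N = 1 ∧ x ^ ((Nat.card (X (sr a)) - 1) * Nat.card (X (sr a))) ≠ 1 := by
  obtain ⟨F, _, _, f, hinj, hran, -, hcard⟩ := exists_node R hM
  rw [hcard] at hN ⊢
  obtain ⟨e, he, he'⟩ := exists_e hN
  refine ⟨f e, hran ▸ ⟨e, rfl⟩, by rw [← map_pow, he, map_one], fun h1 => he' ?_⟩
  rw [← map_pow, ← map_one f] at h1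
  exact hinj h1

/-- **Elliptic elements of type `{a}`.** -/
theorem exists_ell_one {a j : I} (hM : M a j = 3) {N : ℕ} (hN : Good N (Nat.card (X (sr a)))) :
    ∃ x, x ^ N = 1 ∧ Ell cs h T X {a} x := by
  obtain ⟨x, hx, h1, h2⟩ := exists_xa R hM hN
  refine ⟨x, h1, ell_of R ?_ ?_ ?_ hx⟩
  · rintro _ rfl
    exact ⟨j, hM⟩
  · rintro _ rfl i hi k hk
    exact absurd hk.1 hk.2
  · rintro _ rfl
    exact ⟨x, 1, hx, one_mem _, by rw [mul_one], h2⟩

/-- **Elliptic elements of type `{a, b}`.** -/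
theorem exists_ell_two {a j b l : I} (ha : M a j = 3) (hb : M b l = 3) (hab : a ≠ b) (ho : Orth A {a} {b}) {N : ℕ}
    (hNa : Good N (Nat.card (X (sr a)))) (hNb : Good N (Nat.card (X (sr b)))) :
    ∃ x, x ^ N = 1 ∧ Ell cs h T X {a, b} x := by
  obtain ⟨x, hx, hx1, hx2⟩ := exists_xa R ha hNa
  obtain ⟨y, hy, hy1, hy2⟩ := exists_xa R hb hNb
  have hcomm := ho.comm R x hx y hy
  have e1 : ({a, b} : Set I) = {a} ∪ {b} := rfl
  have ea : ({a, b} : Set I) \ {a} = {b} := by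
    ext i
    simp only [Set.mem_sdiff, Set.mem_insert_iff, Set.mem_singleton_iff]
    constructor
    · rintro ⟨h1 | h1, h2⟩
      · exact absurd h1 h2
      · exact h1
    · rintro rfl
      exact ⟨Or.inr rfl, hab.symm⟩
  have eb : ({a, b} : Set I) \ {b} = {a} := by
    ext i
    simp only [Set.mem_sdiff, Set.mem_insert_iff, Set.mem_singleton_iff]
    constructor
    · rintro ⟨h1 | h1, h2⟩
      · exact h1
      · exact absurd h1 h2
    · rintro rfl
      exact ⟨Or.inl rfl, hab⟩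
  refine ⟨x * y, ?_, ell_of R ?_ ?_ ?_ ?_⟩
  · rw [(show Commute x y from hcomm).mul_pow, hx1, hy1, one_mul]
  · rintro _ (rfl | rfl)
    · exact ⟨j, ha⟩
    · exact ⟨l, hb⟩
  · rintro _ (rfl | rfl)
    · rw [ea]; exact ho
    · rw [eb]; exact ho.symm
  · rintro _ (rfl | rfl)
    · exact ⟨x, y, hx, by rw [ea]; exact hy, rfl, hx2⟩
    · exact ⟨y, x, hy, by rw [eb]; exact hx, hcomm, hy2⟩
  · rw [e1, ho.MJ_union]
    exact mul_mem (Subgroup.mem_sup_left hx) (Subgroup.mem_sup_right hy)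

/-- **Vanishing of the induced character.** -/
theorem vz_of [Fintype Y] {J : Set I} {ψ : ↥(LJ cs h T X J) → ℂ} {ψ' : ↥(PJ cs h T X J) → ℂ}
    (hI : Ind cs h T X J ψ ψ') {N : ℕ} {x : Y} (hx : x ^ N = 1) {K' : Set I}
    (hkill : ∀ (l : Y) (hl : l ∈ LJ cs h T X J), l ^ N = 1 → ψ ⟨l, hl⟩ ≠ 0 → l ∈ LJ cs h T X K')
    (hnot : ∀ (α : MulAut Y) (g : Y), g⁻¹ * α x * g ∉ PJ cs h T X K') : H713.VZ Y x := by
  refine ⟨⟨_, hI.ind⟩, fun α => hI.value (dec R J) fun g l v hl hv e => ?_⟩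
  by_contra hne
  apply hnot α g
  obtain ⟨π, hπL, hπV⟩ := exists_projL R J
  have hlv : l * v ∈ PJ cs h T X J := mul_mem (LJ_le_PJ hl) (VJ_le_PJ hv)
  have h1 : (l * v) ^ N = 1 := by
    rw [← e]
    have h2 := conj_pow (a := g⁻¹) (b := α x) (i := N)
    rw [inv_inv] at h2
    rw [h2, ← map_pow, hx, map_one, mul_one, inv_mul_cancel]
  have h2 : π ⟨l * v, hlv⟩ = ⟨l, hl⟩ := by
    have e2 : (⟨l * v, hlv⟩ : PJ cs h T X J) = ⟨l, LJ_le_PJ hl⟩ * ⟨v, VJ_le_PJ hv⟩ := rfl
    rw [e2, map_mul, hπL, hπV v hv, mul_one]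
  have h3 : l ^ N = 1 := by
    have h4 : (π ⟨l * v, hlv⟩) ^ N = 1 := by
      rw [← map_pow]
      have h5 : (⟨l * v, hlv⟩ : PJ cs h T X J) ^ N = 1 := Subtype.ext h1
      rw [h5, map_one]
    rw [h2] at h4
    exact congrArg Subtype.val h4
  rw [e]
  exact mul_mem (LJ_le_PJ (hkill l hl h3 hne)) (B_le_PJ (VJ_le_B J hv))

/-- the images of an elliptic element under automorphisms -/
theorem not_mem_card [Fact p.Prime] (hG : GG cs h T X = ⊤) {K K' : Set I} {x : Y} (hx : Ell cs h T X K x)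
    (hc : K'.ncard < K.ncard) (α : MulAut Y) (g : Y) : g⁻¹ * α x * g ∉ PJ cs h T X K' := by
  intro hg
  obtain ⟨g₀, σ, -, -, hE⟩ := Ell.exists_aut R hG hx α
  obtain ⟨K₁, hK₁, w, -, h2, -⟩ := hE.exists_conj R hG (g := g₀ * g) (J := K') (by
    have e : (g₀ * g)⁻¹ * (g₀ * α x * g₀⁻¹) * (g₀ * g) = g⁻¹ * α x * g := by group
    rwa [e])
  have hsr : ∀ i j : I, (sr i : I → ℤ) = sr j → i = j := by
    intro i j hij
    by_contra hne
    have := congrFun hij i
    rw [sr_self, sr_ne hne] at this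
    exact one_ne_zero this
  choose! f hf hf' using h2
  have h3 : (σ '' K).ncard ≤ K₁.ncard := by
    refine Set.ncard_le_ncard_of_injOn f hf ?_ (Set.toFinite _)
    intro a ha b hb hab
    apply hsr
    have e1 := hf' a ha
    have e2 := hf' b hb
    rw [hab, ← e2] at e1
    have e3 := congrArg (rep cs h w⁻¹) e1
    rwa [rep_inv_apply, rep_inv_apply] at e3
  have h4 : (σ '' K).ncard = K.ncard := Set.ncard_image_of_injective K σ.injective
  have h5 := Set.ncard_le_ncard hK₁ (Set.toFinite K')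
  omega

/-- the images of an elliptic element under automorphisms, root groups of different orders -/
theorem not_mem_size [Fact p.Prime] (hG : GG cs h T X = ⊤) {a : I} {K' : Set I} {x : Y} (hx : Ell cs h T X {a} x)
    (hc : ∀ j ∈ K', Nat.card (X (sr j)) ≠ Nat.card (X (sr a))) (α : MulAut Y) (g : Y) :
    g⁻¹ * α x * g ∉ PJ cs h T X K' := by
  intro hg
  obtain ⟨g₀, σ, -, hσ, hE⟩ := Ell.exists_aut R hG hx α
  obtain ⟨K₁, hK₁, w, -, h2, -⟩ := hE.exists_conj R hG (g := g₀ * g) (J := K') (by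
    have e : (g₀ * g)⁻¹ * (g₀ * α x * g₀⁻¹) * (g₀ * g) = g⁻¹ * α x * g := by group
    rwa [e])
  obtain ⟨j, hj, e⟩ := h2 (σ a) ⟨a, rfl, rfl⟩
  apply hc j (hK₁ hj)
  obtain ⟨k, hk⟩ := exists_rp cs R.nsys w
  rw [← hσ a, ← e, ← R.conj_rp hk (isRoot_sr cs h (σ a))]
  exact (Nat.card_congr ((X (sr (σ a))).equivMapOfInjective _ (MulAut.conj k).injective).toEquiv).symm

end rgd

end Cfsg.Agent.H928.Van
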