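import Cfsg.Agent.H928.Van.RankTwo
import Cfsg.Agent.H928.Van.Main
import Cfsg.Agent.H115.HC.TwDFour
import Cfsg.Agent.H526.Van.TwE6
import Cfsg.Agent.H620.PNorm

/-!
# `VOrdP p` and `VPow 2` for `³D₄(q)`, `p ∣ q ^ 2 - 1` (S4555, S4559, helper928)
-/

set_option autoImplicit false
set_option linter.unusedSectionVars false

open Cfsg

namespace Cfsg.Agent.H928.Van.TwD4

open CoxeterSystem Cfsg.Agent.ChevalleyStructure.CoxeterGeom Cfsg.Agent.Tits.Roots Cfsg.Agent.Tits.Core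
  Cfsg.Agent.Tits.RootComb Cfsg.Agent.Nodes.Comb Cfsg.Agent.Nodes.Reps Cfsg.Agent.Nodes.BNOf
  Cfsg.Agent.Nodes.BNOf.RGD Cfsg.Agent.Nodes.RGDChev Cfsg.Agent.Nodes.RGDFold
open Cfsg.Agent.Nodes.Bruhat Cfsg.Agent.Nodes.LeviDec
open Cfsg.Lie Cfsg.Agent.ChevalleyStructure Cfsg.Agent.ChevalleyStructure.TwistedU
open Cfsg.Agent.Nodes.RGDFoldSL
open Cfsg.Agent.ChevalleyStructure.SL2Hom (up lo mem_closure_SL2)
open Cfsg.Agent.BiChar.TwDFour Cfsg.Agent.H115.HC.TwDFour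
open Cfsg.Agent.Characters

variable {K : Type} [Field K] [Fintype K] {q : ℕ} {φ : K →+* K}

/-- **An irreducible character vanishing off the conjugates of `P_0`** (`0` the long node). -/
theorem exists_chi (hφ : ∀ x, φ x = x ^ q) (hle : twistedD4 K q ≤ D4Fixed.fix φ) (hq : IsPrimePow q)
    (hK : Fintype.card K = q ^ 3) : ∃ χ : ↥(twistedD4 K q) → ℂ, IsIrrCharacter _ χ ∧
      ∀ y : ↥(twistedD4 K q), (∀ g : ↥(twistedD4 K q), g⁻¹ * y * g ∉
        PJ cs Nodes.RGDTwD4.isCartan (Nodes.RGDTwD4.T K q) (Nodes.RGDTwD4.X φ q) {0}) → χ y = 0 := by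
  classical
  obtain ⟨p, hch⟩ := CharP.exists K
  have : Fact p.Prime := ⟨CharP.char_is_prime K p⟩
  have : Finite CoxeterMatrix.G₂.Group := Nodes.RGDChev.finite_W Cfsg.Agent.BiChar.GTwo.isType cs
  have Rg := Nodes.RGDTwD4.rgd (K := K) cs hK hφ p
  -- an element of the torus
  obtain ⟨c, hc0, hc4⟩ : ∃ c : Fx φ ((Nodes.RGDTwNode.D4.rest 1).length + 1), c ≠ 0 ∧ c ^ 4 ≠ 1 := by
    have hfin : Finite (Fx φ ((Nodes.RGDTwNode.D4.rest 1).length + 1)) := inferInstance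
    obtain ⟨g, hg⟩ := IsCyclic.exists_generator (α := (Fx φ ((Nodes.RGDTwNode.D4.rest 1).length + 1))ˣ)
    have h1 : Nat.card (Fx φ ((Nodes.RGDTwNode.D4.rest 1).length + 1)) = Nat.card K :=
      Nat.card_congr (Equiv.subtypeUnivEquiv fun t => mem_Fx_three hK hφ t)
    have h2 : orderOf g = Nat.card K - 1 := by
      rw [orderOf_eq_card_of_forall_mem_zpowers hg, Nat.card_units, h1]
    refine ⟨g, g.ne_zero, fun h4 => ?_⟩
    have h5 : g ^ 4 = 1 := Units.ext (by rw [Units.val_pow_eq_pow_val, h4, Units.val_one])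
    have h6 := Nat.le_of_dvd (by norm_num) (orderOf_dvd_of_pow_eq_one h5)
    rw [h2, Nat.card_eq_fintype_card, hK] at h6
    have h7 : 2 ^ 3 ≤ q ^ 3 := Nat.pow_le_pow_left hq.two_le 3
    omega
  have hcc : c * c ≠ 0 := mul_ne_zero hc0 hc0
  exact exists_van_G2 Rg (GG_top hφ hK) T_comm (by decide)
    (by
      rw [card_X0 hφ hle hq.one_lt hK]
      exact hq.two_le) (a := Ph hφ hle 1 (hS c)) (Cfsg.Agent.BiChar.TwDFour.Ph_hS hφ hle 1 hc0)
    (by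
      rw [← map_mul, hS_mul hc0 hc0]
      intro h1
      have h3 := free hφ hle hcc (by
        have e : (c * c) ^ 2 = c ^ 4 := by ring
        rw [e]
        exact hc4) (t := 1) (by rw [h1, one_mul, mul_one])
      exact one_ne_zero h3)
    (by
      rw [← Cfsg.Agent.BiChar.TwDFour.Ph_wS hφ hle 1, ← map_inv, ← map_mul, ← map_mul, wS_hS hc0, map_inv])
    (by
      intro u hu
      have hu' : (u : GL chevD4.Idx K) ∈ R chevD4 Nodes.RGDTwD4.hp K Nodes.RGDTwD4.J (D4Fixed.sig φ) ![2, 3] :=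
        Subgroup.mem_subgroupOf.1 hu
      rw [R_eq cls_hi (by decide +kernel)] at hu'
      exact comm_hi hφ hle (s := 23) (by decide) hu'.1 (p := p) hK _)
    (by
      intro u hu
      have hu' : (u : GL chevD4.Idx K) ∈ R chevD4 Nodes.RGDTwD4.hp K Nodes.RGDTwD4.J (D4Fixed.sig φ) (-![2, 3]) :=
        Subgroup.mem_subgroupOf.1 hu
      rw [R_eq cls_hi' (by decide +kernel)] at hu'
      exact comm_hi hφ hle (s := 0) (by decide) hu'.1 (p := p) hK _)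

/-- the exponent of the torus -/
theorem T_pow {t : ↥(twistedD4 K q)} (ht : t ∈ Nodes.RGDTwD4.T K q) : t ^ (Fintype.card K - 1) = 1 := by
  have ht' : (t : GL chevD4.Idx K) ∈ chevD4.diagonalSubgroup K :=
    (Subgroup.mem_inf.1 (Subgroup.mem_subgroupOf.1 ht)).1
  obtain ⟨χ, hχ⟩ := HMatDiagAll.mem_torus.1 (HMatDiagAll.diagonalSubgroup_le_torus Nodes.RGDTwD4.hp.inList ht')
  apply Subtype.ext
  apply Units.ext
  rw [SubgroupClass.coe_pow, Units.val_pow_eq_pow_val, hχ, Matrix.diagonal_pow, OneMemClass.coe_one, Units.val_one,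
    ← Matrix.diagonal_one]
  congr 1
  funext i
  have hu : IsUnit (Matrix.diagonal (Sum.elim (fun _ => (1 : K)) χ) : Matrix chevD4.Idx chevD4.Idx K) :=
    hχ ▸ (t : GL chevD4.Idx K).isUnit
  have h1 := (Pi.isUnit_iff.1 (Matrix.isUnit_diagonal.1 hu)) i
  rw [Pi.pow_apply]
  exact FiniteField.pow_card_sub_one_eq_one _ h1.ne_zero

/-- the order of the root group of the node `1` -/
theorem card_X1 (hφ : ∀ x, φ x = x ^ q) (hle : twistedD4 K q ≤ D4Fixed.fix φ)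
    (hK : Fintype.card K = q ^ 3) : Nat.card (Nodes.RGDTwD4.X φ q (sr 1)) = q ^ 3 := by
  have h1 : Nat.card (Fx φ ((Nodes.RGDTwNode.D4.rest 1).length + 1)) = q ^ 3 := by
    rw [← hK, ← Nat.card_eq_fintype_card]
    exact Nat.card_congr (Equiv.subtypeUnivEquiv fun t => mem_Fx_three hK hφ t)
  refine Eq.trans ?_ h1
  symm
  refine Nat.card_congr (Equiv.ofBijective (fun t => (⟨Ph hφ hle 1 (up t), (mem_X hφ hle 1 _).2 ⟨t, rfl⟩⟩ :
    Nodes.RGDTwD4.X φ q (sr 1))) ⟨fun a b hab => up_inj hφ hle 1 (congrArg Subtype.val hab), ?_⟩)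
  rintro ⟨g, hg⟩
  obtain ⟨t, ht⟩ := (mem_X hφ hle 1 g).1 hg
  exact ⟨t, Subtype.ext ht.symm⟩

/-- **`VZ` elements of the short minimal parabolic subgroup.** -/
theorem vz_of_mem (hφ : ∀ x, φ x = x ^ q) (hle : twistedD4 K q ≤ D4Fixed.fix φ) (hq : IsPrimePow q)
    (hK : Fintype.card K = q ^ 3) {p : ℕ} [Fact p.Prime] [CharP K p] {x : ↥(twistedD4 K q)}
    (hx : x ∈ PJ cs Nodes.RGDTwD4.isCartan (Nodes.RGDTwD4.T K q) (Nodes.RGDTwD4.X φ q) {1})
    (hp : ¬ p ∣ orderOf x) (hk : ¬ orderOf x ∣ Fintype.card K - 1) : H713.VZ ↥(twistedD4 K q) x := by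
  have : Finite CoxeterMatrix.G₂.Group := Nodes.RGDChev.finite_W Cfsg.Agent.BiChar.GTwo.isType cs
  have Rg := Nodes.RGDTwD4.rgd (K := K) cs hK hφ p
  obtain ⟨χ, hχ, hv⟩ := exists_chi hφ hle hq hK
  have hE := ell_node Rg hx (fun t ht => T_pow ht) hp hk
  refine ⟨⟨χ, hχ⟩, fun α => hv _ fun g => ?_⟩
  refine not_mem_size Rg (GG_top hφ hK) hE ?_ α g
  rintro _ rfl
  rw [card_X0 hφ hle hq.one_lt hK, card_X1 hφ hle hK]
  have h1 : q ^ 1 < q ^ 3 := Nat.pow_lt_pow_right hq.one_lt (by norm_num)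
  rw [pow_one] at h1
  exact h1.ne

theorem exists_char (hq : IsPrimePow q) (hK : Fintype.card K = q ^ 3) : ∃ r, r.Prime ∧ CharP K r ∧ r ∣ q := by
  obtain ⟨r, hch⟩ := CharP.exists K
  obtain ⟨f, hr, hf⟩ := FiniteField.card K r
  refine ⟨r, hr, hch, ?_⟩
  have h1 : r ∣ q ^ 3 := by
    rw [← hK, hf]
    exact dvd_pow_self r f.ne_zero
  exact hr.dvd_of_dvd_pow h1

/-- **`³D₄(q)`, `p` odd, `p ∣ q + 1`.** -/
theorem vOrdP_plus (hq : IsPrimePow q) (hK : Fintype.card K = q ^ 3) {p : ℕ} (hp : p.Prime) (h2 : p ≠ 2)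
    (hd : p ∣ q + 1) : H620.PNorm.VOrdP p ↥(twistedD4 K q) := by
  obtain ⟨φ, hφ⟩ := D4Fixed.exists_frob hq hK
  have hle := D4Fixed.twisted_le_fix hK hφ
  obtain ⟨r, hr, hch, hrq⟩ := exists_char hq hK
  have : Fact r.Prime := ⟨hr⟩
  have : Fact p.Prime := ⟨hp⟩
  have : Finite CoxeterMatrix.G₂.Group := Nodes.RGDChev.finite_W Cfsg.Agent.BiChar.GTwo.isType cs
  have Rg := Nodes.RGDTwD4.rgd (K := K) cs hK hφ r
  have h1 := Cfsg.Agent.H554.RG.relIndex_B_PJ_singleton Rg 1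
  rw [card_X1 hφ hle hK] at h1
  have h3 : p ∣ Nat.card ↥(PJ cs Nodes.RGDTwD4.isCartan (Nodes.RGDTwD4.T K q) (Nodes.RGDTwD4.X φ q) {1}) := by
    refine dvd_trans ?_ (Subgroup.relIndex_dvd_card (RGD.B cs Nodes.RGDTwD4.isCartan (Nodes.RGDTwD4.T K q)
      (Nodes.RGDTwD4.X φ q)) _)
    rw [h1]
    refine hd.trans ⟨q ^ 2 - q + 1, ?_⟩
    obtain ⟨m, rfl⟩ := Nat.exists_eq_add_of_le hq.one_lt.le
    have e : (1 + m) ^ 2 - (1 + m) = m ^ 2 + m := by
      rw [show (1 + m) ^ 2 = (m ^ 2 + m) + (1 + m) by ring, Nat.add_sub_cancel]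
    rw [e]
    ring
  obtain ⟨⟨x, hx⟩, hxo⟩ := exists_prime_orderOf_dvd_card' p h3
  rw [Subgroup.orderOf_mk] at hxo
  refine ⟨x, hxo, vz_of_mem hφ hle hq hK (p := r) hx ?_ ?_⟩
  · rw [hxo]
    intro h4
    have h5 := (Nat.prime_dvd_prime_iff_eq hr hp).1 h4
    subst h5
    have h6 := (Nat.dvd_add_right hrq).1 hd
    exact hp.one_lt.ne' (Nat.dvd_one.1 h6)
  · rw [hxo, hK]
    intro h4
    have h5 : p ∣ q ^ 3 + 1 := by
      refine hd.trans ⟨q ^ 2 - q + 1, ?_⟩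
      obtain ⟨m, rfl⟩ := Nat.exists_eq_add_of_le hq.one_lt.le
      have e : (1 + m) ^ 2 - (1 + m) = m ^ 2 + m := by
        rw [show (1 + m) ^ 2 = (m ^ 2 + m) + (1 + m) by ring, Nat.add_sub_cancel]
      rw [e]
      ring
    have h6 : p ∣ 2 := by
      have h7 := Nat.dvd_sub h5 h4
      have h8 : 1 ≤ q ^ 3 := Nat.one_le_pow _ _ (by have := hq.one_lt; omega)
      have e : q ^ 3 + 1 - (q ^ 3 - 1) = 2 := by omega
      rwa [e] at h7
    exact h2 ((Nat.prime_dvd_prime_iff_eq hp Nat.prime_two).1 h6)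

/-- **`³D₄(q)`, `q = 3` mod `4`.** -/
theorem vPow_plus (hq : IsPrimePow q) (hK : Fintype.card K = q ^ 3) (hd : 4 ∣ q + 1) :
    H620.PNorm.VPow 2 ↥(twistedD4 K q) := by
  obtain ⟨φ, hφ⟩ := D4Fixed.exists_frob hq hK
  have hle := D4Fixed.twisted_le_fix hK hφ
  obtain ⟨r, hr, hch, hrq⟩ := exists_char hq hK
  have : Fact r.Prime := ⟨hr⟩
  have hr2 : r ≠ 2 := by
    rintro rfl
    have h1 : 2 ∣ q + 1 := dvd_trans (by norm_num) hd
    omega
  have h2K : (2 : K) ≠ 0 := by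
    intro h0
    have h1 : ((2 : ℕ) : K) = 0 := by exact_mod_cast h0
    rw [CharP.cast_eq_zero_iff K r] at h1
    exact hr2 ((Nat.prime_dvd_prime_iff_eq hr Nat.prime_two).1 h1)
  set x := Ph hφ hle 1 (wS 1) with hx
  have hne : (-1 : Fx φ ((Nodes.RGDTwNode.D4.rest 1).length + 1)) ≠ 0 := neg_ne_zero.2 one_ne_zero
  have hne1 : Ph hφ hle 1 (hS (-1)) ≠ 1 := by
    intro h1
    have := free_two hφ hle h2K (t := 1) (by rw [h1, one_mul, mul_one])
    exact one_ne_zero this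
  have hsq : x ^ 2 = Ph hφ hle 1 (hS (-1)) := by
    rw [hx, ← map_pow]
    congr 1
    apply Subtype.ext
    rw [sq]
    change (wS 1 : Matrix.SpecialLinearGroup (Fin 2) _).1 * (wS 1 : Matrix.SpecialLinearGroup (Fin 2) _).1 =
      (hS (-1) : Matrix.SpecialLinearGroup (Fin 2) _).1
    rw [coe_wS one_ne_zero, coe_hS hne]
    ext i j
    fin_cases i <;> fin_cases j <;> simp
  have h4 : x ^ 4 = 1 := by
    rw [show 4 = 2 * 2 from rfl, pow_mul, hsq, ← map_pow, pow_two, hS_mul hne hne, neg_mul_neg, one_mul]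
    have h1S : hS (1 : Fx φ ((Nodes.RGDTwNode.D4.rest 1).length + 1)) = 1 := by
      apply Subtype.ext
      rw [coe_hS one_ne_zero, inv_one]
      exact Matrix.one_fin_two.symm
    rw [h1S, map_one]
  have ho : orderOf x = 2 ^ (1 + 1) := by
    have : Fact (Nat.Prime 2) := ⟨Nat.prime_two⟩
    refine orderOf_eq_prime_pow ?_ ?_
    · rw [pow_one, hsq]
      exact hne1
    · exact h4
  refine ⟨x, ⟨1 + 1, ho⟩, vz_of_mem hφ hle hq hK (p := r) ?_ ?_ ?_⟩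
  · have h1 := Ph_mem (p := r) hφ hle hK 1 (wS 1)
    have h2 : Nodes.RGDTwD4.X φ q (sr 1) ⊔ Nodes.RGDTwD4.X φ q (-sr 1) ≤
        PJ cs Nodes.RGDTwD4.isCartan (Nodes.RGDTwD4.T K q) (Nodes.RGDTwD4.X φ q) {1} := by
      refine sup_le ?_ ?_
      · exact le_trans (X_le_LJ ⟨isRoot_sr cs Nodes.RGDTwD4.isCartan 1, fun k hk => sr_ne (by simpa using hk)⟩) LJ_le_PJ
      · refine le_trans (X_le_LJ ⟨(isRoot_sr cs Nodes.RGDTwD4.isCartan 1).neg, fun k hk => ?_⟩) LJ_le_PJ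
        rw [Pi.neg_apply, sr_ne (by simpa using hk), neg_zero]
    exact h2 h1
  · rw [ho]
    intro h5
    exact hr2 ((Nat.prime_dvd_prime_iff_eq hr Nat.prime_two).1 (hr.dvd_of_dvd_pow h5))
  · rw [ho, hK]
    intro h5
    obtain ⟨c, hc⟩ := hd
    have e : q = 4 * c - 1 := by omega
    obtain ⟨m, rfl⟩ : ∃ m, c = m + 1 := ⟨c - 1, by omega⟩
    have e2 : q = 4 * m + 3 := by omega
    have e3 : q ^ 3 - 1 = 4 * (16 * m ^ 3 + 36 * m ^ 2 + 27 * m + 6) + 2 := by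
      rw [e2]
      have : (4 * m + 3) ^ 3 = 4 * (16 * m ^ 3 + 36 * m ^ 2 + 27 * m + 6) + 2 + 1 := by ring
      omega
    rw [e3] at h5
    have h6 : (2 : ℕ) ^ (1 + 1) = 4 := rfl
    rw [h6] at h5
    omega

end Cfsg.Agent.H928.Van.TwD4
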